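import Mathlib

/-!
# The diagonal of a conjugacy class of commuting subgroups

`L` a subgroup with trivial centre whose distinct conjugates commute.  `exists_diag` : there is an injective
homomorphism `D : L → G` (the diagonal in the product of the conjugates) such that for every `g` there are an
automorphism `a` of `L` and a homomorphism `π` from a subgroup `K` containing `D L` and `g (D L) g⁻¹` onto `L` with
`π (D x) = x` and `π (g (D y) g⁻¹) = a y`.
-/

set_option autoImplicit false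

namespace Cfsg.Agent.H463.Diag

open Subgroup

variable {G : Type*} [Group G]

/-- conjugate of a subgroup -/
abbrev cj (g : G) (L : Subgroup G) : Subgroup G := L.map (MulAut.conj g).toMonoidHom

theorem mem_cj {g : G} {L : Subgroup G} {x : G} : x ∈ cj g L ↔ g⁻¹ * x * g ∈ L := by
  constructor
  · rintro ⟨y, hy, rfl⟩
    show g⁻¹ * (g * y * g⁻¹) * g ∈ L
    have h : g⁻¹ * (g * y * g⁻¹) * g = y := by group
    rwa [h]
  · intro h
    exact ⟨g⁻¹ * x * g, h, by show g * (g⁻¹ * x * g) * g⁻¹ = x; group⟩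

theorem cj_mul (g h : G) (L : Subgroup G) : cj (g * h) L = cj g (cj h L) := by
  ext x
  rw [mem_cj, mem_cj, mem_cj]
  have h1 : (g * h)⁻¹ * x * (g * h) = h⁻¹ * (g⁻¹ * x * g) * h := by group
  rw [h1]

theorem cj_one (L : Subgroup G) : cj 1 L = L := by
  ext x
  rw [mem_cj]; simp

theorem exists_diag [Finite G] {L : Subgroup G} (hZ : center ↥L = ⊥)
    (hcomm : ∀ g : G, cj g L ≠ L → ∀ x ∈ cj g L, ∀ y ∈ L, x * y = y * x) :
    ∃ D : ↥L →* G, Function.Injective D ∧ ∀ g : G, ∃ (a : MulAut ↥L) (K : Subgroup G) (π : ↥K →* ↥L),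
      ∀ x y : ↥L, ∃ (hx : D x ∈ K) (hy : g * D y * g⁻¹ ∈ K), π ⟨D x, hx⟩ = x ∧ π ⟨g * D y * g⁻¹, hy⟩ = a y := by
  classical
  let Ω := {M : Subgroup G // ∃ g : G, cj g L = M}
  have : Fintype Ω := Fintype.ofFinite Ω
  choose gM hgM using fun M : Ω => M.2
  have hcomm' : ∀ M M' : Subgroup G, (∃ g, cj g L = M) → (∃ g, cj g L = M') → M ≠ M' →
      ∀ x ∈ M, ∀ y ∈ M', x * y = y * x := by
    rintro _ _ ⟨g, rfl⟩ ⟨h, rfl⟩ hne x hx y hy
    have h1 : cj (h⁻¹ * g) L ≠ L := by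
      intro h2
      apply hne
      rw [cj_mul] at h2
      have h3 := congrArg (cj h) h2
      rw [← cj_mul, mul_inv_cancel] at h3
      rw [← h3, cj_one]
    have h2 := hcomm _ h1 (h⁻¹ * x * h) (by
      rw [mem_cj]
      have h3 : (h⁻¹ * g)⁻¹ * (h⁻¹ * x * h) * (h⁻¹ * g) = g⁻¹ * x * g := by group
      rw [h3]
      exact mem_cj.1 hx) (h⁻¹ * y * h) (mem_cj.1 hy)
    have h3 : x * y = h * ((h⁻¹ * x * h) * (h⁻¹ * y * h)) * h⁻¹ := by group
    have h4 : y * x = h * ((h⁻¹ * y * h) * (h⁻¹ * x * h)) * h⁻¹ := by group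
    rw [h3, h4, h2]
  let φ : Ω → (↥L →* G) := fun M => (MulAut.conj (gM M)).toMonoidHom.comp L.subtype
  have hφ : ∀ M l, φ M l = gM M * (l : G) * (gM M)⁻¹ := fun M l => rfl
  have hφmem : ∀ (M : Ω) l, φ M l ∈ (M : Subgroup G) := fun M l => by
    rw [← hgM M]; exact ⟨l, l.2, rfl⟩
  have hpc : Pairwise fun M M' : Ω => ∀ x y : ↥L, Commute (φ M x) (φ M' y) := fun M M' hne x y =>
    hcomm' M M' M.2 M'.2 (fun h => hne (Subtype.ext h)) _ (hφmem M x) _ (hφmem M' y)
  let Φ : (Ω → ↥L) →* G := MonoidHom.noncommPiCoprod φ hpc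
  let D : ↥L →* G := Φ.comp (MonoidHom.pi fun _ => MonoidHom.id ↥L)
  -- splitting off one factor
  have hsplit : ∀ (M : Ω) (l : ↥L), ∃ c ∈ centralizer ((M : Subgroup G) : Set G), D l = φ M l * c := by
    intro M l
    refine ⟨Φ (Function.update (fun _ => l) M 1), ?_, ?_⟩
    · rw [mem_centralizer_iff]
      intro m hm
      have : Commute m (Φ (Function.update (fun _ => l) M 1)) := by
        show Commute m (MonoidHom.noncommPiCoprod φ hpc _)
        rw [MonoidHom.noncommPiCoprod_apply]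
        apply Finset.noncommProd_induction
        · exact fun x y => Commute.mul_right
        · exact Commute.one_right _
        · intro i _
          by_cases hi : i = M
          · subst hi
            rw [Function.update_self, map_one]
            exact Commute.one_right _
          · exact hcomm' M i M.2 i.2 (fun h => hi (Subtype.ext h.symm)) _ hm _ (hφmem i _)
      exact this.eq
    · have h1 : φ M l = Φ (Pi.mulSingle M l) := (MonoidHom.noncommPiCoprod_mulSingle φ (hcomm := hpc) M l).symm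
      rw [h1, ← map_mul]
      show Φ (fun _ => l) = _
      congr 1
      funext i
      by_cases hi : i = M
      · subst hi
        simp
      · simp [hi]
  -- `M ∩ C(M) = 1`
  have hinf : ∀ (M : Ω) (x : G), x ∈ (M : Subgroup G) → x ∈ centralizer ((M : Subgroup G) : Set G) → x = 1 := by
    intro M x hx hxc
    rw [← hgM M] at hx hxc
    have h1 : (⟨(gM M)⁻¹ * x * gM M, mem_cj.1 hx⟩ : ↥L) ∈ center ↥L := by
      rw [mem_center_iff]
      intro l
      apply Subtype.ext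
      show (l : G) * ((gM M)⁻¹ * x * gM M) = ((gM M)⁻¹ * x * gM M) * l
      have h2 := mem_centralizer_iff.1 hxc (gM M * (l : G) * (gM M)⁻¹) ⟨l, l.2, rfl⟩
      have h3 : (l : G) * ((gM M)⁻¹ * x * gM M) = (gM M)⁻¹ * ((gM M * (l : G) * (gM M)⁻¹) * x) * gM M := by group
      have h4 : ((gM M)⁻¹ * x * gM M) * l = (gM M)⁻¹ * (x * (gM M * (l : G) * (gM M)⁻¹)) * gM M := by group
      rw [h3, h4, h2]
    rw [hZ, mem_bot] at h1
    have h2 := congrArg Subtype.val h1
    change (gM M)⁻¹ * x * gM M = 1 at h2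
    have h3 : x = gM M * ((gM M)⁻¹ * x * gM M) * (gM M)⁻¹ := by group
    rw [h3, h2]; group
  refine ⟨D, ?_, ?_⟩
  · rw [injective_iff_map_eq_one]
    intro l hl
    let M : Ω := ⟨L, 1, cj_one L⟩
    obtain ⟨c, hc, hD⟩ := hsplit M l
    rw [hl] at hD
    have h1 : φ M l = c⁻¹ := eq_inv_of_mul_eq_one_left hD.symm
    have h2 := hinf M (φ M l) (hφmem M l) (h1 ▸ inv_mem hc)
    rw [hφ, mul_inv_eq_one, mul_eq_left] at h2
    exact Subtype.ext h2
  · intro g
    let M0 : Ω := ⟨L, 1, cj_one L⟩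
    let M' : Ω := ⟨cj g (M0 : Subgroup G), g * gM M0, by rw [cj_mul, hgM M0]⟩
    have hM' : (M' : Subgroup G) = cj g (M0 : Subgroup G) := rfl
    -- the automorphism
    let h := (gM M')⁻¹ * g * gM M0
    have hh : cj h L = L := by
      show cj ((gM M')⁻¹ * g * gM M0) L = L
      rw [cj_mul, cj_mul, hgM M0, ← hM', ← hgM M', ← cj_mul, inv_mul_cancel, cj_one]
    let a : MulAut ↥L := ((MulAut.conj h).subgroupMap L).trans (MulEquiv.subgroupCongr hh)
    have ha : ∀ l : ↥L, ((a l : ↥L) : G) = h * l * h⁻¹ := fun l => rfl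
    -- the projection
    let C := centralizer ((M' : Subgroup G) : Set G)
    have hMC : ∀ (m : ↥(M' : Subgroup G)) (c : ↥C), Commute ((M' : Subgroup G).subtype m) (C.subtype c) :=
      fun m c => (mem_centralizer_iff.1 c.2 m m.2)
    let Ψ : ↥(M' : Subgroup G) × ↥C →* G :=
      MonoidHom.noncommCoprod (M' : Subgroup G).subtype C.subtype hMC
    have hΨ : ∀ (m : ↥(M' : Subgroup G)) (c : ↥C), Ψ (m, c) = m * c := fun m c => rfl
    have hΨi : Function.Injective Ψ := by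
      rw [injective_iff_map_eq_one]
      rintro ⟨m, c⟩ hmc
      rw [hΨ] at hmc
      have h1 : (m : G) = (c : G)⁻¹ := eq_inv_of_mul_eq_one_left hmc
      have h2 : (m : G) = 1 := hinf M' m m.2 (h1 ▸ inv_mem c.2)
      rw [h2, one_mul] at hmc
      exact Prod.ext (Subtype.ext h2) (Subtype.ext hmc)
    -- `M' → L`
    have hbk : ∀ m : ↥(M' : Subgroup G), (gM M')⁻¹ * (m : G) * gM M' ∈ L := fun m => by
      have h1 : (m : G) ∈ cj (gM M') L := by rw [hgM M']; exact m.2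
      exact mem_cj.1 h1
    let β : ↥(M' : Subgroup G) →* ↥L :=
      { toFun := fun m => ⟨(gM M')⁻¹ * (m : G) * gM M', hbk m⟩
        map_one' := Subtype.ext (by simp)
        map_mul' := fun m n => Subtype.ext (by
          show (gM M')⁻¹ * ((m : G) * n) * gM M' = ((gM M')⁻¹ * m * gM M') * ((gM M')⁻¹ * n * gM M')
          group) }
    let π : ↥Ψ.range →* ↥L := (β.comp (MonoidHom.fst _ _)).comp (MonoidHom.ofInjective hΨi).symm.toMonoidHom
    have hπ : ∀ (m : ↥(M' : Subgroup G)) (c : ↥C) (hk : (m : G) * c ∈ Ψ.range), π ⟨(m : G) * c, hk⟩ = β m := by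
      intro m c hk
      have h1 : (⟨(m : G) * c, hk⟩ : ↥Ψ.range) = MonoidHom.ofInjective hΨi (m, c) := Subtype.ext rfl
      rw [h1]
      show β ((MonoidHom.ofInjective hΨi).symm (MonoidHom.ofInjective hΨi (m, c))).1 = β m
      rw [MulEquiv.symm_apply_apply]
    refine ⟨a, Ψ.range, π, fun x y => ?_⟩
    obtain ⟨c, hc, hDx⟩ := hsplit M' x
    obtain ⟨d, hd, hDy⟩ := hsplit M0 y
    have hm2 : g * φ M0 y * g⁻¹ ∈ (M' : Subgroup G) := ⟨φ M0 y, hφmem M0 y, rfl⟩
    have hd2 : g * d * g⁻¹ ∈ C := by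
      rw [mem_centralizer_iff]
      rintro _ ⟨m, hm, rfl⟩
      show (g * m * g⁻¹) * (g * d * g⁻¹) = (g * d * g⁻¹) * (g * m * g⁻¹)
      have h1 := mem_centralizer_iff.1 hd m hm
      have h2 : (g * m * g⁻¹) * (g * d * g⁻¹) = g * (m * d) * g⁻¹ := by group
      have h3 : (g * d * g⁻¹) * (g * m * g⁻¹) = g * (d * m) * g⁻¹ := by group
      rw [h2, h3, h1]
    have hDy' : g * D y * g⁻¹ = (g * φ M0 y * g⁻¹) * (g * d * g⁻¹) := by rw [hDy]; group
    have hx : D x ∈ Ψ.range := ⟨(⟨φ M' x, hφmem M' x⟩, ⟨c, hc⟩), by rw [hΨ, hDx]⟩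
    have hy : g * D y * g⁻¹ ∈ Ψ.range := ⟨(⟨_, hm2⟩, ⟨_, hd2⟩), by rw [hΨ, hDy']⟩
    refine ⟨hx, hy, ?_, ?_⟩
    · have h1 : (⟨D x, hx⟩ : ↥Ψ.range) = ⟨(φ M' x) * c, by rw [← hDx]; exact hx⟩ := Subtype.ext hDx
      rw [h1]
      have h2 := hπ ⟨φ M' x, hφmem M' x⟩ ⟨c, hc⟩ (by
        show φ M' x * c ∈ _
        rw [← hDx]; exact hx)
      rw [show (⟨(φ M' x) * c, by rw [← hDx]; exact hx⟩ : ↥Ψ.range) = ⟨((⟨φ M' x, hφmem M' x⟩ : ↥(M' : Subgroup G)) : G) *
        ((⟨c, hc⟩ : ↥C) : G), by show φ M' x * c ∈ _; rw [← hDx]; exact hx⟩ from rfl, h2]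
      apply Subtype.ext
      show (gM M')⁻¹ * φ M' x * gM M' = x
      rw [hφ]; group
    · have h1 : (⟨g * D y * g⁻¹, hy⟩ : ↥Ψ.range) = ⟨((⟨_, hm2⟩ : ↥(M' : Subgroup G)) : G) * ((⟨_, hd2⟩ : ↥C) : G), by
          show (g * φ M0 y * g⁻¹) * (g * d * g⁻¹) ∈ _
          rw [← hDy']; exact hy⟩ := Subtype.ext hDy'
      rw [h1, hπ]
      apply Subtype.ext
      rw [ha]
      show (gM M')⁻¹ * (g * φ M0 y * g⁻¹) * gM M' = _
      rw [hφ]
      show _ = ((gM M')⁻¹ * g * gM M0) * (y : G) * ((gM M')⁻¹ * g * gM M0)⁻¹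
      group

end Cfsg.Agent.H463.Diag
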