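import Cfsg.Agent.H463.MinNN2
import Cfsg.Agent.H463.Red45

/-! # S3847 for groups all of whose simple sections are known (helper463) -/

set_option autoImplicit false

namespace Cfsg.Agent.H463.Main47

open Subgroup Cfsg.Agent.H463.SolCase Cfsg.Agent.H463.MinNN Cfsg.Agent.H463.MinNN2 Cfsg.Agent.H463.Pair

universe u

/-- **The statement of S3847**, given the coprime pairs in the simple groups. -/
theorem main (hP : ∀ (S : Type u) [Group S] [Finite S], IsSimpleGroup S → ¬ IsMulCommutative S → Pair45 S)
    {G : Type u} [Group G] [Finite G] (hG : ¬ Group.IsNilpotent G) :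
    (¬ Group.IsNilpotent G ∧ ∀ H : Subgroup G, H ≠ ⊤ → Group.IsNilpotent H) ↔
      ∀ p q : ℕ, p.Prime → q.Prime → p ≠ q → ∀ x y : G, (∃ k : ℕ, orderOf x = p ^ k) →
        (∃ k : ℕ, orderOf y = q ^ k) → closure ({x, y} : Set G) ≠ ⊤ → ∃ g : G, Commute x (g * y * g⁻¹) := by
  constructor
  · rintro ⟨-, h⟩ p q hp hq hpq x y hx hy hne
    have : Fact p.Prime := ⟨hp⟩
    have : Fact q.Prime := ⟨hq⟩
    refine ⟨1, ?_⟩
    rw [one_mul, inv_one, mul_one]
    exact SolvableStructure.MinNonNilpotent.commute_of_le_isNilpotent (h _ hne) hpq (isPGroup_zpowers hx)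
      (isPGroup_zpowers hy) (by rw [zpowers_le]; exact subset_closure (by simp))
      (by rw [zpowers_le]; exact subset_closure (by simp)) (mem_zpowers x) (mem_zpowers y)
  · intro h
    refine ⟨hG, ?_⟩
    have hsol : Group.IsSolvable G := by
      by_contra hns
      apply hns
      refine Red45.solvable_of_H45 hP fun p hp hp2 x y _ _ hx hy hs => ?_
      refine h p 2 hp Nat.prime_two hp2 x y hx hy fun h1 => hns ?_
      rw [h1] at hs
      exact Group.isSolvable_of_surjective (f := (⊤ : Subgroup G).subtype) fun x => ⟨⟨x, mem_top x⟩, rfl⟩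
    exact main_solvable hsol hG h

end Cfsg.Agent.H463.Main47
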