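import Cfsg.Agent.H463.RegOrbit

/-! # Regular orbits of abelian groups of automorphisms of abelian groups (coprime orders) -/

set_option autoImplicit false

namespace Cfsg.Agent.H463.RegAut

open Subgroup

/-- **Regular orbit**: a commutative group `T` of automorphisms of a finite commutative group `A` whose elements have
orders prime to `|A|` has a regular orbit. -/
theorem exists_regular {A : Type*} [Group A] [Finite A] (hA : ∀ a b : A, a * b = b * a) (T : Subgroup (MulAut A))
    (hT : ∀ s ∈ T, ∀ t ∈ T, s * t = t * s) (hc : ∀ t ∈ T, (orderOf t).Coprime (Nat.card A)) :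
    ∃ a : A, ∀ t ∈ T, t a = a → t = 1 := by
  let X := A ⋊[MonoidHom.id (MulAut A)] MulAut A
  have hfin : Finite (MulAut A) := inferInstance
  have hX : Finite X := Finite.of_equiv _ (SemidirectProduct.equivProd (φ := MonoidHom.id (MulAut A))).symm
  let iA : A →* X := SemidirectProduct.inl
  let iT : MulAut A →* X := SemidirectProduct.inr
  have hiA : Function.Injective iA := SemidirectProduct.inl_injective
  have hiT : Function.Injective iT := SemidirectProduct.inr_injective
  have hconj : ∀ (t : MulAut A) (a : A), iT t * iA a * (iT t)⁻¹ = iA (t a) := by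
    intro t a
    have := SemidirectProduct.inl_aut (φ := MonoidHom.id (MulAut A)) t a
    rw [MonoidHom.id_apply] at this
    show SemidirectProduct.inr t * SemidirectProduct.inl a * (SemidirectProduct.inr t)⁻¹ = SemidirectProduct.inl (t a)
    rw [this, map_inv]
  have hcom : ∀ (t : MulAut A) (a : A), iT t * iA a = iA a * iT t ↔ t a = a := by
    intro t a
    rw [← hiA.eq_iff, ← hconj, mul_inv_eq_iff_eq_mul]
  have hcard : Nat.card iA.range = Nat.card A := (Nat.card_congr (MonoidHom.ofInjective hiA).toEquiv).symm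
  obtain ⟨x, ⟨a, rfl⟩, hx⟩ := RegOrbit.exists_regular (T.map iT) iA.range
    (by rintro _ ⟨a, rfl⟩ _ ⟨b, rfl⟩; rw [← map_mul, ← map_mul, hA])
    (by rintro _ ⟨s, hs, rfl⟩ _ ⟨t, ht, rfl⟩; rw [← map_mul, ← map_mul, hT s hs t ht])
    (by rintro _ ⟨t, -, rfl⟩ _ ⟨a, rfl⟩; exact ⟨t a, (hconj t a).symm⟩)
    (by
      rintro _ ⟨t, ht, rfl⟩
      rw [orderOf_injective iT hiT, hcard]
      exact hc t ht)
  refine ⟨a, fun t ht hta => ?_⟩
  have h1 := hx (iT t) ⟨t, ht, rfl⟩ ((hcom t a).2 hta)
  ext b
  exact (hcom t b).1 (h1 (iA b) ⟨b, rfl⟩)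

end Cfsg.Agent.H463.RegAut
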